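import Mathlib

/-!
# S2539, parts 2.1 and 2.2, abstract part (helper501)

`Least T F`: `T` is an abelian subgroup of `F`, self-centralising in `F`, every proper subgroup of `F` containing
`T` normalises `T`, and `F` does not; the Laurent trick `lt`.

* `Least.inf_conj` : `T ⊓ T ^ f ≤ Z(F)` for `f ∈ F` outside `N(T)`;
* `Least.mem_of_comm` : `t ∈ T - Z`, `g t g⁻¹ t⁻¹ ∈ Z` ⟹ `g ∈ N(T)`;
* `Least.le_of_normalizer` : `T ≤ C₀`, `F ≤ N(C₀)` ⟹ `F ≤ C₀`;
* `eq_of_cube` : a periodic additive map `w` of a torsion-free group with `(w - 1)³ x = 0` fixes `x`;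
* `dvd_of_pair` : the computation showing that `T/Z` is not cyclic.
-/

set_option autoImplicit false

namespace Cfsg.Agent.H501.OT

open Subgroup

section Group

variable {G : Type*} [Group G]

/-- the centre of the subgroup `F`, as a subgroup of `G` -/
def ZF (F : Subgroup G) : Subgroup G := F ⊓ centralizer (F : Set G)

theorem mem_ZF {F : Subgroup G} {z : G} : z ∈ ZF F ↔ z ∈ F ∧ ∀ f ∈ F, f * z = z * f := by
  rw [ZF, mem_inf, mem_centralizer_iff]
  rfl

/-- The conditions on a least subgroup which is not good and contains no root subgroups. -/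
structure Least (T F : Subgroup G) : Prop where
  le : T ≤ F
  comm : ∀ x ∈ T, ∀ y ∈ T, x * y = y * x
  cent : ∀ x ∈ F, (∀ t ∈ T, t * x = x * t) → x ∈ T
  ne : ¬ F ≤ normalizer (T : Set G)
  uniq : ∀ H : Subgroup G, T ≤ H → H ≤ F → H ≠ F → H ≤ normalizer (T : Set G)
  lt : ∀ g ∈ F, (∀ t ∈ T, g * t * g⁻¹ ∈ normalizer (T : Set G)) → g ∈ normalizer (T : Set G)

namespace Least

variable {T F : Subgroup G}

theorem ZF_le (h : Least T F) : ZF F ≤ T := by
  intro z hz
  obtain ⟨h1, h2⟩ := mem_ZF.1 hz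
  exact h.cent z h1 fun t ht => h2 t (h.le ht)

theorem cent_le (h : Least T F) {t : G} (ht : t ∈ T) (hz : t ∉ ZF F) {x : G} (hx : x ∈ F)
    (hxt : x * t = t * x) : x ∈ normalizer (T : Set G) := by
  have h1 : T ≤ F ⊓ centralizer {t} := by
    intro s hs
    exact mem_inf.2 ⟨h.le hs, mem_centralizer_singleton_iff.2 (h.comm s hs t ht)⟩
  refine h.uniq (F ⊓ centralizer {t}) h1 inf_le_left ?_ (mem_inf.2 ⟨hx, mem_centralizer_singleton_iff.2 hxt⟩)
  intro he
  apply hz
  rw [mem_ZF]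
  refine ⟨h.le ht, fun f hf => ?_⟩
  rw [← he] at hf
  exact mem_centralizer_singleton_iff.1 (mem_inf.1 hf).2

theorem conj_mem_ZF {z f : G} (hf : f ∈ F) (hz : f * z * f⁻¹ ∈ ZF F) : z ∈ ZF F := by
  obtain ⟨h1, h2⟩ := mem_ZF.1 hz
  have h3 : z = f * z * f⁻¹ := by
    have := h2 f⁻¹ (inv_mem hf)
    calc z = f⁻¹ * (f * z * f⁻¹) * f := by group
      _ = f * z * f⁻¹ * f⁻¹ * f := by rw [this]
      _ = f * z * f⁻¹ := by group
  rw [h3]
  exact hz

/-- `T` is a TI subgroup modulo `Z(F)`. -/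
theorem inf_conj (h : Least T F) {f : G} (hf : f ∈ F) (hfN : f ∉ normalizer (T : Set G)) {t : G} (ht : t ∈ T)
    (hft : f * t * f⁻¹ ∈ T) : t ∈ ZF F := by
  by_contra hz
  apply hfN
  apply h.lt f hf
  intro s hs
  refine h.cent_le hft (fun h1 => hz (conj_mem_ZF hf h1)) (mul_mem (mul_mem hf (h.le hs)) (inv_mem hf)) ?_
  have := h.comm s hs t ht
  calc f * s * f⁻¹ * (f * t * f⁻¹) = f * (s * t) * f⁻¹ := by group
    _ = f * (t * s) * f⁻¹ := by rw [this]
    _ = _ := by group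

/-- An element of `F` commuting with `t ∈ T - Z` modulo `Z` normalises `T`. -/
theorem mem_of_comm (h : Least T F) {t : G} (ht : t ∈ T) (hz : t ∉ ZF F) {g : G} (hg : g ∈ F)
    (hgt : g * t * g⁻¹ * t⁻¹ ∈ ZF F) : g ∈ normalizer (T : Set G) := by
  by_contra hN
  apply hz
  refine h.inf_conj hg hN ht ?_
  have := mul_mem (h.ZF_le hgt) ht
  rwa [inv_mul_cancel_right] at this

/-- **2.2**: `F` lies in every subgroup `C₀ ≥ T` normalised by `F`. -/
theorem le_of_normalizer (h : Least T F) {C₀ : Subgroup G} (hT : T ≤ C₀)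
    (hF : F ≤ normalizer (C₀ : Set G)) : F ≤ C₀ := by
  by_contra hne
  apply h.ne
  have h1 : F ⊓ C₀ ≤ normalizer (T : Set G) :=
    h.uniq (F ⊓ C₀) (le_inf h.le hT) inf_le_left (fun he => hne (by rw [← he]; exact inf_le_right))
  intro f hf
  apply h.lt f hf
  intro t ht
  exact h1 (mem_inf.2 ⟨mul_mem (mul_mem hf (h.le ht)) (inv_mem hf), (mem_normalizer_iff.1 (hF hf) t).1 (hT ht)⟩)

/-- a subgroup of `T` normalised by `F` is central -/
theorem le_ZF_of_normalizer (h : Least T F) {X : Subgroup G} (hX : X ≤ T)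
    (hF : F ≤ normalizer (X : Set G)) : X ≤ ZF F := by
  intro x hx
  obtain ⟨f, hf, hfN⟩ := SetLike.not_le_iff_exists.1 h.ne
  exact h.inf_conj hf hfN (hX hx) (hX ((mem_normalizer_iff.1 (hF hf) x).1 hx))

end Least

end Group

section Lattice

variable {V : Type*} [AddCommGroup V]

/-- `(w - 1)² x = 0` and `w` periodic: `w x = x`. -/
theorem eq_of_sq (htf : ∀ (m : ℕ) (v : V), m ≠ 0 → m • v = 0 → v = 0) (w : V →+ V) {m : ℕ} (hm : m ≠ 0)
    (hw : ∀ v, w^[m] v = v) {x : V} (hx : w (w x) + x = 2 • w x) : w x = x := by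
  have h0 : w (w x - x) = w x - x := by
    rw [map_sub, eq_sub_of_add_eq hx, two_nsmul]
    abel
  have h1 : ∀ k : ℕ, w^[k] x = x + k • (w x - x) := by
    intro k
    induction k with
    | zero => simp
    | succ k ih =>
      rw [Function.iterate_succ_apply', ih, map_add, map_nsmul, h0, succ_nsmul]
      abel
  have h2 := h1 m
  rw [hw] at h2
  have h3 : m • (w x - x) = 0 := by
    have := h2.symm
    rwa [add_eq_left] at this
  exact sub_eq_zero.1 (htf m _ hm h3)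

/-- `w x - x ∈ closure P`, `(w - 1)² = 0` on `P`, `w` periodic: `w x = x`. -/
theorem eq_of_closure (htf : ∀ (m : ℕ) (v : V), m ≠ 0 → m • v = 0 → v = 0) (w : V →+ V) {m : ℕ} (hm : m ≠ 0)
    (hw : ∀ v, w^[m] v = v) {P : Set V} (hP : ∀ x ∈ P, w (w x) + x = 2 • w x) {x : V}
    (hx : w x - x ∈ AddSubgroup.closure P) : w x = x := by
  have h1 : ∀ y ∈ AddSubgroup.closure P, w y = y := by
    intro y hy
    induction hy using AddSubgroup.closure_induction with
    | mem y hy => exact eq_of_sq htf w hm hw (hP y hy)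
    | zero => exact map_zero w
    | add a b _ _ ha hb => rw [map_add, ha, hb]
    | neg a _ ha => rw [map_neg, ha]
  apply eq_of_sq htf w hm hw
  have h2 := h1 _ hx
  rw [map_sub] at h2
  have h3 : w (w x) = w x - x + w x := by rw [← h2, sub_add_cancel]
  rw [h3, two_nsmul]
  abel

end Lattice

section Noncyc

/-- Two characters `a, b` and two elements `u = τ ^ i`, `v = τ ^ j` with `a u = g ^ 2`, `b u = g ^ m`, `a v = g ^ k`,
`b v = g ^ 2`: the order of the generator `g` divides `4 - m k`. -/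
theorem dvd_of_pair {A : Type*} [CommGroup A] {g α β : A} {i j m k : ℤ} (hg : ∀ x : A, x ∈ zpowers g)
    (h1 : α ^ i = g ^ (2 : ℤ)) (h2 : β ^ i = g ^ m) (h3 : α ^ j = g ^ k) (h4 : β ^ j = g ^ (2 : ℤ)) :
    (orderOf g : ℤ) ∣ 4 - m * k := by
  obtain ⟨a, rfl⟩ := mem_zpowers_iff.1 (hg α)
  obtain ⟨b, rfl⟩ := mem_zpowers_iff.1 (hg β)
  rw [← zpow_mul] at h1 h2 h3 h4
  rw [orderOf_dvd_iff_zpow_eq_one]
  have e5 : g ^ (4 : ℤ) = g ^ (m * k) := by
    calc g ^ (4 : ℤ) = (g ^ (2 : ℤ)) ^ (2 : ℤ) := by rw [← zpow_mul]; norm_num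
      _ = (g ^ (a * i)) ^ (2 : ℤ) := by rw [h1]
      _ = (g ^ (2 : ℤ)) ^ (a * i) := by rw [← zpow_mul, ← zpow_mul, mul_comm]
      _ = (g ^ (b * j)) ^ (a * i) := by rw [h4]
      _ = (g ^ (b * i)) ^ (a * j) := by
          rw [← zpow_mul, ← zpow_mul]
          congr 1
          ring
      _ = (g ^ m) ^ (a * j) := by rw [h2]
      _ = (g ^ (a * j)) ^ m := by rw [← zpow_mul, ← zpow_mul, mul_comm]
      _ = (g ^ k) ^ m := by rw [h3]
      _ = g ^ (m * k) := by rw [← zpow_mul, mul_comm]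
  rw [zpow_sub, e5, mul_inv_cancel]

end Noncyc

end Cfsg.Agent.H501.OT
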